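/- helper555: 2-transitive actions of groups between A_m and S_m: primitive stabilizers (HUB H1, P10) -/
import Cfsg.Agent.H555.AltTwo.Imprim
import Cfsg.Agent.S0713
import Cfsg.Agent.S3681

set_option autoImplicit false

namespace Cfsg.Agent.H555.AltTwo

open MulAction Equiv Equiv.Perm

universe u v

/-! ### a commuting lemma -/

/-- an element of prime order `r ≠ p` commuting with a `p`-cycle fixes its support -/
theorem fix_support {β : Type*} [Fintype β] [DecidableEq β] {p r : ℕ} (hp : p.Prime) (hr : r.Prime)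
    (hpr : p ≠ r) {x y : Perm β} (hx : x.IsCycle) (hxp : x ^ p = 1) (hyr : y ^ r = 1)
    (hxy : y * x = x * y) {v : β} (hv : x v ≠ v) : y v = v := by
  have := Fact.mk hp
  have hcomm : Commute y x := hxy
  have hyv : x (y v) ≠ y v := by
    intro h
    apply hv
    have h1 : y (x v) = x (y v) := by
      rw [← Perm.mul_apply, ← Perm.mul_apply, hxy]
    rw [h] at h1
    exact y.injective h1
  obtain ⟨k, hk⟩ := hx.sameCycle hv hyv
  -- y ^ i v = x ^ (k i) v
  have h2 : ∀ i : ℕ, (y ^ i) v = (x ^ (k * i)) v := by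
    intro i
    induction i with
    | zero => simp
    | succ i ih =>
      have hc : Commute y (x ^ (k * i)) := hcomm.zpow_right _
      rw [pow_succ', Perm.mul_apply, ih, ← Perm.mul_apply, hc.eq, Perm.mul_apply, ← hk,
        ← Perm.mul_apply, ← zpow_add]
      congr 2
      push_cast; ring
  have h3 : (x ^ (k * r)) v = v := by
    rw [← h2 r, hyr, Perm.one_apply]
  have h4 : x ^ (k * r) = 1 := by
    by_contra hne
    have hord : orderOf x = p := orderOf_eq_prime hxp hx.ne_one
    -- k * r prime to p then x ∈ zpowers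
    have hnd : ¬ (p : ℤ) ∣ k * r := by
      intro hd
      apply hne
      rw [← hord] at hd
      exact orderOf_dvd_iff_zpow_eq_one.mp hd
    have hcop : IsCoprime (p : ℤ) (k * r) := by
      rw [(Nat.prime_iff_prime_int.mp hp).coprime_iff_not_dvd]
      exact hnd
    obtain ⟨s, t, hst⟩ := hcop
    apply hv
    have h5 : x = (x ^ (k * r)) ^ t := by
      have h6 : x ^ (s * p + t * (k * r)) = x := by rw [hst, zpow_one]
      rw [zpow_add, zpow_mul', zpow_natCast, hxp, one_zpow, one_mul, zpow_mul'] at h6
      exact h6.symm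
    have h7 : (MulAction.stabilizer (Perm β) v) ≤ ⊤ := le_top
    have h8 : x ^ (k * r) ∈ MulAction.stabilizer (Perm β) v := h3
    have h9 : x ∈ MulAction.stabilizer (Perm β) v := by
      rw [h5]
      exact Subgroup.zpow_mem _ h8 t
    exact h9
  have hord : orderOf x = p := orderOf_eq_prime hxp hx.ne_one
  have h5 : (p : ℤ) ∣ k * r := by
    rw [← hord]
    exact orderOf_dvd_iff_zpow_eq_one.mpr h4
  have h6 : (p : ℤ) ∣ k := by
    rcases (Nat.prime_iff_prime_int.mp hp).dvd_or_dvd h5 with h | h
    · exact h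
    · exfalso
      exact hpr ((Nat.prime_dvd_prime_iff_eq hp hr).mp (Int.natCast_dvd_natCast.mp h))
  have h7 : x ^ k = 1 := by
    rw [← hord] at h6
    exact orderOf_dvd_iff_zpow_eq_one.mp h6
  rw [← hk, h7, Perm.one_apply]

/-- in a finite group with a normal Sylow subgroup of prime order `p`, the centralizer is large -/
theorem exists_commuting {X : Type*} [Group X] [Finite X] {p r : ℕ} [hp : Fact p.Prime]
    [hr : Fact r.Prime] (P : Subgroup X) [P.Normal] (hP : Nat.card P = p)
    (hdvd : ∀ c, Nat.card X ∣ c * (p - 1) → r ∣ c) :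
    ∃ y : X, orderOf y = r ∧ ∀ x ∈ P, y * x = x * y := by
  have hcyc : IsCyclic P := isCyclic_of_prime_card hP
  let f : X →* MulAut P := MulAut.conjNormal
  have h1 : Nat.card (MulAut P) = p - 1 := by
    rw [IsCyclic.card_mulAut, hP, Nat.totient_prime hp.out]
  have h2 : Nat.card f.range ∣ p - 1 := h1 ▸ Subgroup.card_subgroup_dvd_card _
  have h3 : Nat.card X = Nat.card f.ker * Nat.card f.range := by
    rw [← Subgroup.index_ker, Subgroup.card_mul_index]
  have h4 : r ∣ Nat.card f.ker := by
    apply hdvd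
    rw [h3]
    exact Nat.mul_dvd_mul_left _ h2
  obtain ⟨y, hy⟩ := exists_prime_orderOf_dvd_card' r h4
  refine ⟨y, by rw [Subgroup.orderOf_coe]; exact hy, fun x hx => ?_⟩
  have h5 : f y = 1 := y.2
  have h6 := congrArg (fun g : MulAut P => ((g ⟨x, hx⟩ : P) : X)) h5
  have h7 : (y : X) * x * (y : X)⁻¹ = x := by
    simpa [f] using h6
  calc (y : X) * x = (y : X) * x * (y : X)⁻¹ * y := by group
    _ = x * y := by rw [h7]

end Cfsg.Agent.H555.AltTwo
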