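/- helper555: 2-transitive actions of groups between A_m and S_m (HUB H1, P10) -/
import Cfsg.Agent.H555.AltTwo.Prim

set_option autoImplicit false

namespace Cfsg.Agent.H555.AltTwo

open MulAction Equiv Equiv.Perm
open scoped Pointwise

universe u v
set_option linter.unusedSectionVars false

/-- the setting -/
structure Ctx (G : Type u) (Ω : Type v) [Group G] [MulAction G Ω] (m : ℕ) (φ : G →* Perm (Fin m)) :
    Prop where
  finG : Finite G
  finΩ : Finite Ω
  faithful : FaithfulSMul G Ω
  two : IsMultiplyPretransitive G Ω 2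
  inj : Function.Injective φ
  alt : alternatingGroup (Fin m) ≤ φ.range
  hm : 5 ≤ m
  hn : 2 ≤ Nat.card Ω

section
variable {G : Type u} {Ω : Type v} [Group G] [MulAction G Ω] {m : ℕ} {φ : G →* Perm (Fin m)}

/-- image of the point stabilizer -/
def HH (φ : G →* Perm (Fin m)) (a : Ω) : Subgroup (Perm (Fin m)) := (stabilizer G a).map φ

theorem mem_HH (c : Ctx G Ω m φ) {a : Ω} {g : G} : φ g ∈ HH φ a ↔ g ∈ stabilizer G a := by
  constructor
  · rintro ⟨h, hh, hhg⟩
    rw [← c.inj hhg]; exact hh
  · intro h; exact ⟨g, h, rfl⟩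

theorem Ctx.coatom (c : Ctx G Ω m φ) (a : Ω) : IsCoatom (stabilizer G a) := by
  have := c.finΩ
  have := c.two
  have : Nontrivial Ω := by
    rw [← Finite.one_lt_card_iff_nontrivial]; have := c.hn; omega
  have := isPreprimitive_of_is_two_pretransitive c.two
  exact IsPreprimitive.isCoatom_stabilizer_of_isPreprimitive G a

theorem Ctx.card_altT (c : Ctx G Ω m φ) :
    Nat.card ((alternatingGroup (Fin m)).comap φ) = Nat.card (alternatingGroup (Fin m)) := by
  have h1 : ((alternatingGroup (Fin m)).comap φ).map φ = alternatingGroup (Fin m) := by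
    rw [Subgroup.map_comap_eq, inf_eq_right.mpr c.alt]
  rw [← Subgroup.card_map_of_injective c.inj, h1]

theorem Ctx.card_alt (c : Ctx G Ω m φ) : 2 * Nat.card (alternatingGroup (Fin m)) = m.factorial := by
  have : Nontrivial (Fin m) := Fin.nontrivial_iff_two_le.mpr (by have := c.hm; omega)
  rw [two_mul_nat_card_alternatingGroup, Nat.card_perm, Nat.card_eq_fintype_card, Fintype.card_fin]

theorem Ctx.trans_alt (c : Ctx G Ω m φ) :
    IsPretransitive ((alternatingGroup (Fin m)).comap φ) Ω := by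
  have := c.finG
  have := c.finΩ
  have := c.faithful
  have := c.two
  have : ((alternatingGroup (Fin m)).comap φ).Normal := inferInstance
  apply transitive_of_normal c.two
  intro h
  have h1 := c.card_altT
  rw [h, Subgroup.card_bot] at h1
  have h2 := c.card_alt
  have h3 : 5 ≤ m.factorial := c.hm.trans (Nat.self_le_factorial m)
  omega

theorem Ctx.dvd_alt (c : Ctx G Ω m φ) : Nat.card Ω ∣ Nat.card (alternatingGroup (Fin m)) := by
  have := c.finG
  have := c.finΩ
  have := c.trans_alt
  have : Nonempty Ω := by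
    by_contra h
    rw [not_nonempty_iff] at h
    have h1 := c.hn
    rw [Nat.card_of_isEmpty] at h1
    omega
  obtain ⟨a⟩ := this
  rw [← c.card_altT, ← index_stabilizer_of_transitive ((alternatingGroup (Fin m)).comap φ) a]
  exact Subgroup.index_dvd_card _

theorem Ctx.card_mul (c : Ctx G Ω m φ) (a : Ω) :
    Nat.card Ω * Nat.card (HH φ a) = Nat.card G := by
  have := c.finG
  have := c.two
  have : IsPretransitive G Ω := isPretransitive_of_is_two_pretransitive
  rw [HH, Subgroup.card_map_of_injective c.inj, ← index_stabilizer_of_transitive G a,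
    Subgroup.index_mul_card]

theorem Ctx.alt_dvd (c : Ctx G Ω m φ) : Nat.card (alternatingGroup (Fin m)) ∣ Nat.card G := by
  rw [← c.card_altT]
  exact Subgroup.card_subgroup_dvd_card _

theorem Ctx.dvd_fact (c : Ctx G Ω m φ) : Nat.card G ∣ m.factorial := by
  have h1 : Nat.card G = Nat.card φ.range := Nat.card_congr (Equiv.ofInjective φ c.inj)
  have h2 : Nat.card φ.range ∣ Nat.card (Perm (Fin m)) := Subgroup.card_subgroup_dvd_card _
  rw [Nat.card_perm, Nat.card_fin] at h2
  rw [h1]; exact h2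

/-- the point stabilizer does not contain the alternating group -/
theorem Ctx.not_alt_le (c : Ctx G Ω m φ) (a : Ω) : ¬ alternatingGroup (Fin m) ≤ HH φ a := by
  intro h
  have := c.finΩ
  have htr := c.trans_alt
  have hsub : Subsingleton Ω := by
    constructor
    intro x y
    have hall : ∀ z : Ω, z = a := by
      intro z
      obtain ⟨g, hg⟩ := htr.exists_smul_eq a z
      have h1 : (g : G) ∈ stabilizer G a := (mem_HH c).mp (h g.2)
      have h2 : (g : G) • a = z := hg
      rw [← h2]; exact h1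
    rw [hall x, hall y]
  have h1 := c.hn
  have h2 : Nat.card Ω ≤ 1 := Finite.card_le_one_iff_subsingleton.mpr hsub
  omega

/-- **trichotomy** -/
theorem Ctx.tri (c : Ctx G Ω m φ) (hm : 7 ≤ m) (a : Ω) :
    Nat.card Ω = m ∨ IsPreprimitive (HH φ a) (Fin m) := by
  classical
  have := c.finG
  have := c.finΩ
  by_cases hex : ∃ K : Finset (Fin m), stabilizer G a ≤ stabK φ K ∧ K.Nonempty ∧ K ≠ Finset.univ
  · left
    obtain ⟨K, hK, hK1, hK2⟩ := hex
    have := intransitive_case c.two a (c.coatom a) c.alt (by rw [Fintype.card_fin]; omega) hK hK1 hK2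
    rwa [Fintype.card_fin] at this
  right
  -- transitivity
  have htr : IsPretransitive (HH φ a) (Fin m) := by
    constructor
    intro x y
    by_contra hcon
    apply hex
    refine ⟨Finset.univ.filter (fun z => ∃ h : HH φ a, h • x = z), ?_, ⟨x, ?_⟩, ?_⟩
    · intro g hg
      rw [mem_stabK]
      have hgH : φ g ∈ HH φ a := (mem_HH c).mpr hg
      intro u
      simp only [Finset.mem_filter, Finset.mem_univ, true_and]
      constructor
      · rintro ⟨h, rfl⟩
        exact ⟨⟨φ g, hgH⟩ * h, by rw [mul_smul]; rfl⟩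
      · rintro ⟨h, hh⟩
        refine ⟨⟨φ g, hgH⟩⁻¹ * h, ?_⟩
        rw [mul_smul, hh, inv_smul_eq_iff]
        rfl
    · simp only [Finset.mem_filter, Finset.mem_univ, true_and]
      exact ⟨1, one_smul _ _⟩
    · intro h
      have h1 : y ∈ (Finset.univ : Finset (Fin m)) := Finset.mem_univ y
      rw [← h] at h1
      simp only [Finset.mem_filter, Finset.mem_univ, true_and] at h1
      exact hcon h1
  refine ⟨?_⟩
  intro B hB
  by_contra htriv
  rw [IsTrivialBlock, not_or, Set.not_subsingleton_iff] at htriv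
  obtain ⟨hB1, hB2⟩ := htriv
  obtain ⟨b₁, hb₁, b₂, hb₂, hb⟩ := hB1
  have hBl : ∀ h h' : HH φ a, (h • B ∩ h' • B).Nonempty → h • B = h' • B := by
    intro h h' hne
    exact isBlock_iff_smul_eq_smul_of_nonempty.mp hB hne
  let r : Setoid (Fin m) :=
    { r := fun u v => ∃ h : HH φ a, u ∈ h • B ∧ v ∈ h • B
      iseqv :=
        { refl := by
            intro u
            obtain ⟨h, hh⟩ := htr.exists_smul_eq b₁ u
            exact ⟨h, ⟨b₁, hb₁, hh⟩, ⟨b₁, hb₁, hh⟩⟩
          symm := by
            rintro u v ⟨h, h1, h2⟩; exact ⟨h, h2, h1⟩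
          trans := by
            rintro u v w ⟨h, h1, h2⟩ ⟨h', h3, h4⟩
            have := hBl h h' ⟨v, h2, h3⟩
            exact ⟨h, h1, by rw [this]; exact h4⟩ } }
  have hrdef : ∀ u v, r u v ↔ ∃ h : HH φ a, u ∈ h • B ∧ v ∈ h • B := fun _ _ => Iff.rfl
  have hinv : ∀ (k : HH φ a) (u v : Fin m), r u v → r (k • u) (k • v) := by
    rintro k u v ⟨h, h1, h2⟩
    refine ⟨k * h, ?_, ?_⟩
    · rw [mul_smul]; exact Set.smul_mem_smul_set h1
    · rw [mul_smul]; exact Set.smul_mem_smul_set h2
  refine imprimitive_case c.two a (c.coatom a) c.alt (by rw [Fintype.card_fin]; exact hm) r ?_ ?_ ?_ ?_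
  · intro g hg u v
    have hgH : φ g ∈ HH φ a := (mem_HH c).mpr hg
    constructor
    · exact hinv ⟨φ g, hgH⟩ u v
    · intro h
      have h1 := hinv ⟨φ g, hgH⟩⁻¹ _ _ h
      have e : ∀ w : Fin m, (⟨φ g, hgH⟩ : HH φ a)⁻¹ • (φ g w) = w := by
        intro w
        rw [inv_smul_eq_iff]; rfl
      rwa [e, e] at h1
  · intro x y
    obtain ⟨⟨h, g, hg, hgh⟩, hh⟩ := htr.exists_smul_eq x y
    refine ⟨g, hg, ?_⟩
    rw [hgh]; exact hh
  · intro x
    obtain ⟨h, hh⟩ := htr.exists_smul_eq b₁ x
    refine ⟨h • b₂, ?_, ?_⟩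
    · intro h1
      rw [← hh] at h1
      exact hb (smul_left_cancel h h1).symm
    · exact ⟨h, ⟨b₁, hb₁, hh⟩, ⟨b₂, hb₂, rfl⟩⟩
  · obtain ⟨z, hz⟩ := (Set.ne_univ_iff_exists_notMem B).mp hB2
    refine ⟨b₁, z, ?_⟩
    rintro ⟨h, h1, h2⟩
    apply hz
    have := hBl h 1 ⟨b₁, h1, by rw [one_smul]; exact hb₁⟩
    rw [this, one_smul] at h2
    exact h2

/-- the class lemma for 3-cycles -/
theorem Ctx.three (c : Ctx G Ω m φ) (a : Ω) (hp : IsPreprimitive (HH φ a) (Fin m)) :
    (Nat.card Ω - 1) ∣ 2 * m.choose 3 := by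
  classical
  have := c.finG
  have := c.finΩ
  let C : Set G := {g | (φ g).IsThreeCycle}
  have h1 : (Nat.card Ω - 1) ∣ Nat.card C := by
    apply dvd_card_of_fpf c.two a C
    · intro g hg k
      change (φ (k * g * k⁻¹)).IsThreeCycle
      have hg' : (φ g).IsThreeCycle := hg
      rw [map_mul, map_mul, map_inv, IsThreeCycle, cycleType_conj]
      exact hg'
    · intro g hg hga
      apply c.not_alt_le a
      have hg' : (φ g).IsThreeCycle := hg
      exact alternatingGroup_le_of_isPreprimitive_of_isThreeCycle_mem hp hg' ((mem_HH c).mpr hga)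
  have h2 : Nat.card C = 2 * m.choose 3 := by
    have e : C ≃ {σ : Perm (Fin m) // σ.cycleType = {3}} := by
      refine Equiv.ofBijective (fun g => ⟨φ g, g.2⟩) ⟨?_, ?_⟩
      · intro g g' h
        exact Subtype.ext (c.inj (congrArg Subtype.val h))
      · rintro ⟨σ, hσ⟩
        obtain ⟨g, hg⟩ := c.alt (IsThreeCycle.mem_alternatingGroup hσ)
        refine ⟨⟨g, ?_⟩, Subtype.ext hg⟩
        change (φ g).IsThreeCycle
        rw [hg]; exact hσ
    have h5 := c.hm
    rw [Nat.card_congr e, Nat.card_eq_fintype_card, Fintype.card_subtype,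
      card_of_cycleType_singleton (by norm_num) (by rw [Fintype.card_fin]; omega), Fintype.card_fin]
    rfl
  rwa [h2] at h1

theorem Ctx.bochert (c : Ctx G Ω m φ) (a : Ω) (hp : IsPreprimitive (HH φ a) (Fin m)) :
    ((m + 1) / 2).factorial ≤ 2 * Nat.card Ω := by
  classical
  have := c.finG
  have := c.finΩ
  have h1 := Cfsg.Agent.S3681.result (G := HH φ a) (Ω := Fin m) hp (by
    intro h
    apply c.not_alt_le a
    intro σ hσ
    obtain ⟨g, hg⟩ := h hσ
    have : (g : Perm (Fin m)) = σ := by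
      rw [← hg]; ext x; rfl
    rw [← this]; exact g.2)
  rw [Fintype.card_fin] at h1
  have h2 := c.card_mul a
  have h3 := Nat.le_of_dvd (by rw [← h2]; exact Nat.mul_pos (by have := c.hn; omega) Nat.card_pos) c.alt_dvd
  have h4 := c.card_alt
  have h5 : 0 < Nat.card (HH φ a) := Nat.card_pos
  rw [← h2] at h3
  by_contra hcon
  push Not at hcon
  have : Nat.card (HH φ a) * (2 * Nat.card Ω) < Nat.card (HH φ a) * ((m + 1) / 2).factorial :=
    Nat.mul_lt_mul_of_pos_left hcon h5
  nlinarith

theorem fact_bound : ∀ k : ℕ, 7 ≤ k → 6 * k ^ 3 ≤ k.factorial := by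
  intro k hk
  induction k, hk using Nat.le_induction with
  | base => decide
  | succ k hk ih =>
    rw [Nat.factorial_succ]
    have : 6 * (k + 1) ^ 3 ≤ (k + 1) * (6 * k ^ 3) := by nlinarith [sq_nonneg (k : ℤ), Nat.pow_le_pow_left hk 2, Nat.pow_le_pow_left hk 3]
    exact this.trans (Nat.mul_le_mul_left _ ih)

/-- arithmetic of the primitive case -/
theorem Ctx.prim_arith (c : Ctx G Ω m φ) (hm : 7 ≤ m) (a : Ω) (hp : IsPreprimitive (HH φ a) (Fin m)) :
    (m = 7 ∧ (Nat.card Ω = 15 ∨ Nat.card Ω = 36)) ∨ (m = 8 ∧ Nat.card Ω = 15) ∨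
      (m = 10 ∧ Nat.card Ω = 81) := by
  have h1 := c.three a hp
  have h2 := c.bochert a hp
  have h3 := c.dvd_alt
  have h4 := c.card_alt
  have hn := c.hn
  have hpos : 0 < 2 * m.choose 3 := by
    have := Nat.choose_pos (show 3 ≤ m by omega); omega
  have hle : Nat.card Ω - 1 ≤ 2 * m.choose 3 := Nat.le_of_dvd hpos h1
  have hm12 : m ≤ 12 := by
    by_contra hcon
    push Not at hcon
    have h5 : m.choose 3 * 6 ≤ m ^ 3 := by
      have := Nat.choose_mul_factorial_mul_factorial (show 3 ≤ m by omega)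
      have h6 : m.descFactorial 3 = Nat.factorial 3 * m.choose 3 := Nat.descFactorial_eq_factorial_mul_choose m 3
      have h7 : m.descFactorial 3 ≤ m ^ 3 := Nat.descFactorial_le_pow m 3
      have h8 : Nat.factorial 3 = 6 := rfl
      rw [h8] at h6
      omega
    obtain ⟨k, hk⟩ : ∃ k, k = (m + 1) / 2 := ⟨_, rfl⟩
    rw [← hk] at h2
    have hk7 : 7 ≤ k := by omega
    have hmk : m ≤ 2 * k := by omega
    have h9 := fact_bound k hk7
    have h10 : m ^ 3 ≤ (2 * k) ^ 3 := Nat.pow_le_pow_left hmk 3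
    have h11 : (2 * k) ^ 3 = 8 * k ^ 3 := by ring
    have h12 : 343 ≤ k ^ 3 := Nat.pow_le_pow_left hk7 3
    omega
  generalize Nat.card Ω = n at *
  generalize Nat.card (alternatingGroup (Fin m)) = t at *
  interval_cases m
  · -- 7
    have e1 : t = 2520 := by
      have : Nat.factorial 7 = 5040 := rfl
      omega
    have e2 : Nat.factorial ((7 + 1) / 2) = 24 := rfl
    have e3 : Nat.choose 7 3 = 35 := rfl
    rw [e1] at h3; rw [e2] at h2; rw [e3] at h1 hle
    have key : ∀ n, n < 72 → (n - 1) ∣ 70 ∧ n ∣ 2520 ∧ 24 ≤ 2 * n → n = 15 ∨ n = 36 := by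
      decide +kernel
    exact Or.inl ⟨rfl, key n (by omega) ⟨h1, h3, h2⟩⟩
  · have e1 : t = 20160 := by
      have : Nat.factorial 8 = 40320 := rfl
      omega
    have e2 : Nat.factorial ((8 + 1) / 2) = 24 := rfl
    have e3 : Nat.choose 8 3 = 56 := rfl
    rw [e1] at h3; rw [e2] at h2; rw [e3] at h1 hle
    have key : ∀ n, n < 114 → (n - 1) ∣ 112 ∧ n ∣ 20160 ∧ 24 ≤ 2 * n → n = 15 := by
      decide +kernel
    exact Or.inr (Or.inl ⟨rfl, key n (by omega) ⟨h1, h3, h2⟩⟩)
  · exfalso
    have e1 : t = 181440 := by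
      have : Nat.factorial 9 = 362880 := rfl
      omega
    have e2 : Nat.factorial ((9 + 1) / 2) = 120 := rfl
    have e3 : Nat.choose 9 3 = 84 := rfl
    rw [e1] at h3; rw [e2] at h2; rw [e3] at h1 hle
    have key : ∀ n, n < 170 → (n - 1) ∣ 168 ∧ n ∣ 181440 ∧ 2 ≤ n → ¬ 120 ≤ 2 * n := by
      decide +kernel
    exact key n (by omega) ⟨h1, h3, hn⟩ h2
  · have e1 : t = 1814400 := by
      have : Nat.factorial 10 = 3628800 := rfl
      omega
    have e2 : Nat.factorial ((10 + 1) / 2) = 120 := rfl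
    have e3 : Nat.choose 10 3 = 120 := rfl
    rw [e1] at h3; rw [e2] at h2; rw [e3] at h1 hle
    have key : ∀ n, n < 242 → (n - 1) ∣ 240 ∧ n ∣ 1814400 ∧ 120 ≤ 2 * n → n = 81 := by
      decide +kernel
    exact Or.inr (Or.inr ⟨rfl, key n (by omega) ⟨h1, h3, h2⟩⟩)
  · exfalso
    have e2 : Nat.factorial ((11 + 1) / 2) = 720 := rfl
    have e3 : Nat.choose 11 3 = 165 := rfl
    rw [e2] at h2; rw [e3] at h1 hle
    omega
  · exfalso
    have e1 : t = 239500800 := by
      have : Nat.factorial 12 = 479001600 := rfl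
      omega
    have e2 : Nat.factorial ((12 + 1) / 2) = 720 := rfl
    have e3 : Nat.choose 12 3 = 220 := rfl
    rw [e1] at h3; rw [e2] at h2; rw [e3] at h1 hle
    have key : ∀ n, n < 442 → (n - 1) ∣ 440 ∧ n ∣ 239500800 ∧ 2 ≤ n → ¬ 720 ≤ 2 * n := by
      decide +kernel
    exact key n (by omega) ⟨h1, h3, hn⟩ h2

/-- **main theorem for `m ≥ 7`** -/
theorem Ctx.main (c : Ctx G Ω m φ) (hm : 7 ≤ m) :
    Nat.card Ω = m ∨ (m = 7 ∧ Nat.card Ω = 15) ∨ (m = 8 ∧ Nat.card Ω = 15) := by
  classical
  have := c.finG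
  have := c.finΩ
  have : Nonempty Ω := by
    by_contra h
    rw [not_nonempty_iff] at h
    have h1 := c.hn
    rw [Nat.card_of_isEmpty] at h1
    omega
  obtain ⟨a⟩ := this
  rcases c.tri hm a with h | hp
  · exact Or.inl h
  right
  have hcm := c.card_mul a
  have hdf := c.dvd_fact
  have had := c.alt_dvd
  have hca := c.card_alt
  rcases c.prim_arith hm a hp with ⟨hm7, hn | hn⟩ | ⟨hm8, hn⟩ | ⟨hm10, hn⟩
  · exact Or.inl ⟨hm7, hn⟩
  · -- m = 7, n = 36
    exfalso
    subst hm7
    have e1 : Nat.factorial 7 = 5040 := rfl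
    have e2 : Nat.card (alternatingGroup (Fin 7)) = 2520 := by omega
    rw [hn] at hcm
    rw [← hcm, e1] at hdf
    rw [← hcm, e2] at had
    have h140 : Nat.card (HH φ a) ∣ 140 := by
      have : 36 * Nat.card (HH φ a) ∣ 36 * 140 := hdf
      exact Nat.dvd_of_mul_dvd_mul_left (by norm_num) this
    have h70 : 70 ∣ Nat.card (HH φ a) := by
      have : 36 * 70 ∣ 36 * Nat.card (HH φ a) := had
      exact Nat.dvd_of_mul_dvd_mul_left (by norm_num) this
    have : Fact (Nat.Prime 7) := ⟨by norm_num⟩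
    have : Fact (Nat.Prime 5) := ⟨by norm_num⟩
    obtain ⟨P⟩ : Nonempty (Sylow 7 (HH φ a)) := inferInstance
    have hcase : Nat.card (HH φ a) = 70 ∨ Nat.card (HH φ a) = 140 := by
      obtain ⟨k, hk⟩ := h70
      rw [hk] at h140
      have : k ∣ 2 := by
        have h : 70 * k ∣ 70 * 2 := h140
        exact Nat.dvd_of_mul_dvd_mul_left (by norm_num) h
      have hk2 := Nat.le_of_dvd (by norm_num) this
      interval_cases k
      · simp at this
      · left; omega
      · right; omega
    have hPc : Nat.card (P : Subgroup (HH φ a)) = 7 := by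
      rw [P.card_eq_multiplicity]
      rcases hcase with h | h
      · rw [h]
        have : Nat.factorization 70 7 = 1 := by
          rw [show (70 : ℕ) = 7 ^ 1 * 10 by norm_num]
          rw [Nat.factorization_mul (by norm_num) (by norm_num), Nat.Prime.factorization_pow (by norm_num)]
          simp [Nat.factorization_eq_zero_of_not_dvd (show ¬ 7 ∣ 10 by norm_num)]
        rw [this, pow_one]
      · rw [h]
        have : Nat.factorization 140 7 = 1 := by
          rw [show (140 : ℕ) = 7 ^ 1 * 20 by norm_num]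
          rw [Nat.factorization_mul (by norm_num) (by norm_num), Nat.Prime.factorization_pow (by norm_num)]
          simp [Nat.factorization_eq_zero_of_not_dvd (show ¬ 7 ∣ 20 by norm_num)]
        rw [this, pow_one]
    have hPn : (P : Subgroup (HH φ a)).Normal := by
      have h5 : Nat.card (Sylow 7 (HH φ a)) ≡ 1 [MOD 7] := card_sylow_modEq_one 7 _
      have h6 : Nat.card (Sylow 7 (HH φ a)) ∣ (P : Subgroup (HH φ a)).index := P.card_dvd_index
      have h7 : (P : Subgroup (HH φ a)).index * 7 = Nat.card (HH φ a) := by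
        have h70 := Subgroup.index_mul_card (P : Subgroup (HH φ a))
        rw [hPc] at h70; exact h70
      have h8 : Nat.card (Sylow 7 (HH φ a)) ∣ 20 := by
        rcases hcase with h | h
        · have : (P : Subgroup (HH φ a)).index = 10 := by omega
          rw [this] at h6
          exact h6.trans (by norm_num)
        · have : (P : Subgroup (HH φ a)).index = 20 := by omega
          rw [this] at h6
          exact h6
      have h9 : Nat.card (Sylow 7 (HH φ a)) = 1 := by
        have key : ∀ n, n ≤ 20 → n ∣ 20 → n % 7 = 1 → n = 1 := by decide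
        exact key _ (Nat.le_of_dvd (by norm_num) h8) h8 h5
      have := (Nat.card_eq_one_iff_unique.mp h9).1
      exact P.normal_of_subsingleton
    obtain ⟨y, hy5, hyc⟩ := exists_commuting (p := 7) (r := 5) (P : Subgroup (HH φ a)) hPc (by
      intro d hd
      rcases hcase with h | h
      · rw [h] at hd
        have h5 : 5 ∣ d * 6 := (Dvd.intro 14 (by norm_num : 5 * 14 = 70)).trans hd
        exact (Nat.Coprime.dvd_of_dvd_mul_right (by norm_num) h5)
      · rw [h] at hd
        have h5 : 5 ∣ d * 6 := (Dvd.intro 28 (by norm_num : 5 * 28 = 140)).trans hd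
        exact (Nat.Coprime.dvd_of_dvd_mul_right (by norm_num) h5))
    obtain ⟨x, hx⟩ := exists_prime_orderOf_dvd_card' (G := (P : Subgroup (HH φ a))) 7 (by rw [hPc])
    have hxo : orderOf (((x : HH φ a)) : Perm (Fin 7)) = 7 := by
      rw [Subgroup.orderOf_coe, Subgroup.orderOf_coe, hx]
    have hxc : (((x : HH φ a)) : Perm (Fin 7)).IsCycle := by
      apply isCycle_of_prime_order'
      · rw [hxo]; norm_num
      · rw [hxo, Fintype.card_fin]; norm_num
    have hxs : (((x : HH φ a)) : Perm (Fin 7)).support = Finset.univ := by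
      apply Finset.eq_univ_of_card
      rw [← hxc.orderOf, hxo, Fintype.card_fin]
    have hyo : orderOf ((y : Perm (Fin 7))) = 5 := by rw [Subgroup.orderOf_coe, hy5]
    have hx7 : (((x : HH φ a)) : Perm (Fin 7)) ^ 7 = 1 := by
      have h := pow_orderOf_eq_one (((x : HH φ a)) : Perm (Fin 7))
      rw [hxo] at h; exact h
    have hy5' : ((y : Perm (Fin 7))) ^ 5 = 1 := by
      have h := pow_orderOf_eq_one ((y : Perm (Fin 7)))
      rw [hyo] at h; exact h
    have hy1 : (y : Perm (Fin 7)) = 1 := by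
      ext v
      rw [Perm.one_apply]
      congr 1
      apply fix_support (p := 7) (r := 5) (by norm_num) (by norm_num) (by norm_num) hxc
        hx7 hy5'
      · exact congrArg Subtype.val (hyc x x.2)
      · rw [← mem_support, hxs]; exact Finset.mem_univ _
    rw [hy1, orderOf_one] at hyo
    omega
  · exact Or.inr ⟨hm8, hn⟩
  · -- m = 10, n = 81
    exfalso
    subst hm10
    have e1 : Nat.factorial 10 = 3628800 := rfl
    have e2 : Nat.card (alternatingGroup (Fin 10)) = 1814400 := by omega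
    rw [hn] at hcm
    rw [← hcm, e2] at had
    have : Fact (Nat.Prime 7) := ⟨by norm_num⟩
    have h7 : 7 ∣ Nat.card (HH φ a) := by
      have h5 : 7 ∣ 81 * Nat.card (HH φ a) := (Dvd.intro 259200 (by norm_num)).trans had
      exact Nat.Coprime.dvd_of_dvd_mul_left (by norm_num) h5
    obtain ⟨x, hx⟩ := exists_prime_orderOf_dvd_card' (G := HH φ a) 7 h7
    have hxo : orderOf (x : Perm (Fin 10)) = 7 := by rw [Subgroup.orderOf_coe, hx]
    have hxc : (x : Perm (Fin 10)).IsCycle := by
      apply isCycle_of_prime_order'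
      · rw [hxo]; norm_num
      · rw [hxo, Fintype.card_fin]; norm_num
    apply c.not_alt_le a
    refine Cfsg.Agent.S0713.result (HH φ a) hp (p := 7) (by norm_num) (by rw [Fintype.card_fin]; norm_num)
      (by rw [Fintype.card_fin]) hxc ?_ x.2
    rw [← hxc.orderOf, hxo]

end

end Cfsg.Agent.H555.AltTwo
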