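/- helper555: HUB H1, P10: the alternating row of the 2-transitive groups with non-abelian socle -/
import Cfsg.Agent.H555.AltTwo.Main
import Cfsg.Agent.H384.TwoTrans
import Cfsg.Agent.S2119
import Cfsg.Agent.S0253
import Cfsg.Agent.S0254
import Cfsg.Agent.S0256

set_option autoImplicit false

namespace Cfsg.Agent.H555.AltTwo

open MulAction Equiv Equiv.Perm
open Cfsg.Agent.H384.TwoTrans

universe u v
set_option linter.unusedSectionVars false

section
variable {G : Type u} {Ω : Type v} [Group G] [MulAction G Ω] {T : Subgroup G}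

theorem as_two_le (A : AS G Ω T) : 2 ≤ Nat.card Ω := by
  have := A.finΩ
  have := A.faithful
  by_contra hcon
  have hs : Subsingleton Ω := by
    rw [← Finite.card_le_one_iff_subsingleton]; omega
  apply A.nonab
  refine ⟨⟨fun x y => ?_⟩⟩
  have : ∀ g : G, g = 1 := fun g => FaithfulSMul.eq_of_smul_eq_smul (α := Ω) (fun x => Subsingleton.elim _ _)
  exact Subtype.ext ((this _).trans (this _).symm)

/-- the embedding into the symmetric group -/
noncomputable def phi (m : ℕ) (hm : 5 ≤ m) (h6 : m ≠ 6) [T.Normal] (e : T ≃* alternatingGroup (Fin m)) :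
    G →* Perm (Fin m) :=
  ((MulEquiv.ofBijective _ (Cfsg.Agent.S2119.result m (by omega) h6)).symm.toMonoidHom).comp
    ((MulAut.congr e).toMonoidHom.comp (MulAut.conjNormal : G →* MulAut T))

theorem phi_inj (A : AS G Ω T) (m : ℕ) (hm : 5 ≤ m) (h6 : m ≠ 6) [T.Normal]
    (e : T ≃* alternatingGroup (Fin m)) : Function.Injective (phi m hm h6 e) := by
  rw [← MonoidHom.ker_eq_bot_iff, eq_bot_iff]
  intro g hg
  rw [MonoidHom.mem_ker] at hg
  have h1 : (MulAut.conjNormal g : MulAut T) = 1 := by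
    have h2 : ((MulEquiv.ofBijective _ (Cfsg.Agent.S2119.result m (by omega) h6)).symm)
      ((MulAut.congr e) (MulAut.conjNormal g)) = 1 := hg
    rw [MulEquiv.map_eq_one_iff, MulEquiv.map_eq_one_iff] at h2
    exact h2
  rw [← A.cent, Subgroup.mem_centralizer_iff]
  intro t ht
  have h3 : (MulAut.conjNormal g : MulAut T) ⟨t, ht⟩ = ⟨t, ht⟩ := by rw [h1]; rfl
  have h4 : g * t * g⁻¹ = t := congrArg Subtype.val h3
  rw [mul_inv_eq_iff_eq_mul] at h4
  exact h4.symm

theorem phi_coe (m : ℕ) (hm : 5 ≤ m) (h6 : m ≠ 6) [T.Normal]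
    (e : T ≃* alternatingGroup (Fin m)) (t : T) : phi m hm h6 e (t : G) = (e t : Perm (Fin m)) := by
  change (MulEquiv.ofBijective _ (Cfsg.Agent.S2119.result m (by omega) h6)).symm
    ((MulAut.congr e) (MulAut.conjNormal (t : G))) = (e t : Perm (Fin m))
  rw [MulEquiv.symm_apply_eq]
  ext1 x
  apply Subtype.ext
  change (((MulAut.congr e) (MulAut.conjNormal (t : G))) x : Perm (Fin m)) =
    (e t : Perm (Fin m)) * x * (e t : Perm (Fin m))⁻¹
  have h1 : ((MulAut.congr e) (MulAut.conjNormal (t : G))) x = e (t * e.symm x * t⁻¹) := by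
    change e ((MulAut.conjNormal (t : G)) (e.symm x)) = _
    congr 1
  rw [h1, map_mul, map_mul, map_inv, MulEquiv.apply_symm_apply]
  rfl

theorem as_ctx (A : AS G Ω T) (m : ℕ) (hm : 5 ≤ m) (h6 : m ≠ 6) [T.Normal]
    (e : T ≃* alternatingGroup (Fin m)) : Ctx G Ω m (phi m hm h6 e) where
  finG := A.finG
  finΩ := A.finΩ
  faithful := A.faithful
  two := A.two
  inj := phi_inj A m hm h6 e
  alt := by
    intro σ hσ
    refine ⟨(e.symm ⟨σ, hσ⟩ : T), ?_⟩
    rw [phi_coe, MulEquiv.apply_symm_apply]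
  hm := hm
  hn := as_two_le A

theorem as_dvd_fact (A : AS G Ω T) : Nat.card G ∣ (Nat.card Ω).factorial := by
  have := A.finΩ
  have := A.faithful
  have h1 : Function.Injective (MulAction.toPermHom G Ω) := MulAction.toPerm_injective
  rw [← Nat.card_perm]
  exact Subgroup.card_dvd_of_injective _ h1

theorem row_five (A : AS G Ω T) (e : T ≃* alternatingGroup (Fin 5)) : Known2 T (Nat.card Ω) := by
  have := A.normal
  have := A.finG
  have := A.finΩ
  have c := as_ctx A 5 le_rfl (by norm_num) e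
  have h1 := c.dvd_alt
  have h2 := c.dvd_fact
  have h3 := c.card_alt
  have h4 := card_mul_dvd c.two c.hn
  have h5 := c.alt_dvd
  have h6 := as_dvd_fact A
  have e1 : Nat.factorial 5 = 120 := rfl
  have e2 : Nat.card (alternatingGroup (Fin 5)) = 60 := by omega
  rw [e2] at h1 h5
  rw [e1] at h2
  have h7 := h4.trans h2
  have h8 := h5.trans h6
  have hn := c.hn
  have hle : Nat.card Ω < 61 := by
    have := Nat.le_of_dvd (by norm_num) h1; omega
  have key : ∀ n, n < 61 → n ∣ 60 ∧ n * (n - 1) ∣ 120 ∧ 5 ≤ n → n = 5 ∨ n = 6 := by decide +kernel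
  have hn5 : 5 ≤ Nat.card Ω := by
    by_contra hcon
    have h9 : Nat.card Ω ≤ 4 := by omega
    have h10 : (Nat.card Ω).factorial ≤ Nat.factorial 4 := Nat.factorial_le h9
    have h11 := Nat.le_of_dvd (Nat.factorial_pos _) h8
    have h12 : Nat.factorial 4 = 24 := rfl
    omega
  rcases key _ hle ⟨h1, h7, hn5⟩ with h | h
  · rw [h]; exact .alt 5 le_rfl ⟨e⟩
  · rw [h]
    have hc : Fintype.card (ZMod 5) = 5 := ZMod.card 5
    have : Fact (Nat.Prime 5) := ⟨by norm_num⟩
    obtain ⟨f⟩ := Cfsg.Agent.S0253.result (F := ZMod 5) hc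
    exact .psl (ZMod 5) 2 6 le_rfl (by rw [hc]; norm_num) ⟨e.trans f.symm⟩ (by rw [hc]; norm_num)

theorem card_alt_six : Nat.card (alternatingGroup (Fin 6)) = 360 := by
  have h := two_mul_nat_card_alternatingGroup (α := Fin 6)
  rw [Nat.card_perm, Nat.card_fin] at h
  have e1 : Nat.factorial 6 = 720 := rfl
  omega

theorem cnt_two : (Finset.univ.filter
    (fun x : Perm (Fin 6) => sign x = 1 ∧ x ^ 2 ^ (0 + 1) = 1 ∧ x ^ 2 ^ 0 ≠ 1)).card = 45 := by
  decide +kernel

theorem cnt_three : (Finset.univ.filter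
    (fun x : Perm (Fin 6) => sign x = 1 ∧ x ^ 3 ^ (0 + 1) = 1 ∧ x ^ 3 ^ 0 ≠ 1)).card = 80 := by
  decide +kernel

theorem cnt_four : (Finset.univ.filter
    (fun x : Perm (Fin 6) => sign x = 1 ∧ x ^ 2 ^ (1 + 1) = 1 ∧ x ^ 2 ^ 1 ≠ 1)).card = 90 := by
  decide +kernel

theorem cnt_five : (Finset.univ.filter
    (fun x : Perm (Fin 6) => sign x = 1 ∧ x ^ 5 ^ (0 + 1) = 1 ∧ x ^ 5 ^ 0 ≠ 1)).card = 144 := by
  decide +kernel

theorem cls (A : AS G Ω T) (e : T ≃* alternatingGroup (Fin 6)) (a : Ω) (p k N : ℕ) [Fact p.Prime]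
    (hN : (Finset.univ.filter
      (fun x : Perm (Fin 6) => sign x = 1 ∧ x ^ p ^ (k + 1) = 1 ∧ x ^ p ^ k ≠ 1)).card = N)
    (hs : ¬ p ^ (k + 1) ∣ Nat.card (stabilizer T a)) : (Nat.card Ω - 1) ∣ N := by
  classical
  have := A.normal
  have := A.finG
  have := A.finΩ
  let C : Set G := {g | g ∈ T ∧ g ^ p ^ (k + 1) = 1 ∧ g ^ p ^ k ≠ 1}
  have h1 : (Nat.card Ω - 1) ∣ Nat.card C := by
    apply dvd_card_of_fpf A.two a C
    · rintro g ⟨hg1, hg2, hg3⟩ h
      refine ⟨A.normal.conj_mem g hg1 h, ?_, ?_⟩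
      · rw [conj_pow, hg2, mul_one, mul_inv_cancel]
      · rw [conj_pow]
        intro h4
        apply hg3
        rwa [conj_eq_one_iff] at h4
    · rintro g ⟨hg1, hg2, hg3⟩ hga
      apply hs
      have h5 : orderOf g = p ^ (k + 1) := orderOf_eq_prime_pow hg3 hg2
      have h6 : (⟨g, hg1⟩ : T) ∈ stabilizer T a := hga
      have h7 : orderOf (⟨⟨g, hg1⟩, h6⟩ : stabilizer T a) = p ^ (k + 1) := by
        rw [← h5, ← Subgroup.orderOf_coe, ← Subgroup.orderOf_coe]
      rw [← h7]
      exact orderOf_dvd_natCard _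
  have h2 : Nat.card C = N := by
    have f : C ≃ {x : Perm (Fin 6) // sign x = 1 ∧ x ^ p ^ (k + 1) = 1 ∧ x ^ p ^ k ≠ 1} := by
      refine Equiv.ofBijective (fun g => ⟨e ⟨g, g.2.1⟩, ?_, ?_, ?_⟩) ⟨?_, ?_⟩
      · exact mem_alternatingGroup.mp (e ⟨g, g.2.1⟩).2
      · have h3 : (⟨g, g.2.1⟩ : T) ^ p ^ (k + 1) = 1 := Subtype.ext g.2.2.1
        rw [← Subgroup.coe_pow, ← map_pow, h3, map_one, Subgroup.coe_one]
      · intro h3
        rw [← Subgroup.coe_pow, ← map_pow, OneMemClass.coe_eq_one, MulEquiv.map_eq_one_iff] at h3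
        exact g.2.2.2 (congrArg Subtype.val h3)
      · intro g g' h
        have h3 := congrArg Subtype.val h
        have h4 : (⟨(g : G), g.2.1⟩ : T) = ⟨(g' : G), g'.2.1⟩ := e.injective (Subtype.ext h3)
        exact Subtype.ext (congrArg (fun z : T => (z : G)) h4)
      · rintro ⟨x, hx1, hx2, hx3⟩
        have hx : x ∈ alternatingGroup (Fin 6) := mem_alternatingGroup.mpr hx1
        have h4 : (⟨x, hx⟩ : alternatingGroup (Fin 6)) ^ p ^ (k + 1) = 1 := Subtype.ext hx2
        have h5 : (⟨x, hx⟩ : alternatingGroup (Fin 6)) ^ p ^ k ≠ 1 := fun h => hx3 (congrArg Subtype.val h)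
        refine ⟨⟨(e.symm ⟨x, hx⟩ : T), (e.symm ⟨x, hx⟩).2, ?_, ?_⟩, ?_⟩
        · rw [← Subgroup.coe_pow, ← map_pow, h4, map_one, Subgroup.coe_one]
        · intro h6
          rw [← Subgroup.coe_pow, ← map_pow, OneMemClass.coe_eq_one, MulEquiv.map_eq_one_iff] at h6
          exact h5 h6
        · apply Subtype.ext
          change (e (e.symm ⟨x, hx⟩) : Perm (Fin 6)) = x
          rw [MulEquiv.apply_symm_apply]
    rw [Nat.card_congr f, Nat.card_eq_fintype_card, Fintype.card_subtype, hN]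
  rwa [h2] at h1

theorem no_nine (A : AS G Ω T) (e : T ≃* alternatingGroup (Fin 6)) (a : Ω)
    (hs : Nat.card (stabilizer T a) = 40) : False := by
  classical
  have := A.finG
  have : Fact (Nat.Prime 5) := ⟨by norm_num⟩
  have : Fact (Nat.Prime 2) := ⟨by norm_num⟩
  obtain ⟨P⟩ : Nonempty (Sylow 5 (stabilizer T a)) := inferInstance
  have hPc : Nat.card (P : Subgroup (stabilizer T a)) = 5 := by
    rw [P.card_eq_multiplicity, hs]
    have : Nat.factorization 40 5 = 1 := by
      rw [show (40 : ℕ) = 5 ^ 1 * 8 by norm_num]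
      rw [Nat.factorization_mul (by norm_num) (by norm_num), Nat.Prime.factorization_pow (by norm_num)]
      simp [Nat.factorization_eq_zero_of_not_dvd (show ¬ 5 ∣ 8 by norm_num)]
    rw [this, pow_one]
  have hPn : (P : Subgroup (stabilizer T a)).Normal := by
    have h5 : Nat.card (Sylow 5 (stabilizer T a)) ≡ 1 [MOD 5] := card_sylow_modEq_one 5 _
    have h6 : Nat.card (Sylow 5 (stabilizer T a)) ∣ (P : Subgroup (stabilizer T a)).index := P.card_dvd_index
    have h7 : (P : Subgroup (stabilizer T a)).index * 5 = 40 := by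
      have h70 := Subgroup.index_mul_card (P : Subgroup (stabilizer T a))
      rw [hPc, hs] at h70; exact h70
    have h8 : (P : Subgroup (stabilizer T a)).index = 8 := by omega
    rw [h8] at h6
    have h9 : Nat.card (Sylow 5 (stabilizer T a)) = 1 := by
      have key : ∀ n, n ≤ 8 → n ∣ 8 → n % 5 = 1 → n = 1 := by decide
      exact key _ (Nat.le_of_dvd (by norm_num) h6) h6 h5
    have := (Nat.card_eq_one_iff_unique.mp h9).1
    exact P.normal_of_subsingleton
  obtain ⟨y, hy2, hyc⟩ := exists_commuting (p := 5) (r := 2) (P : Subgroup (stabilizer T a)) hPc (by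
    intro d hd
    rw [hs] at hd
    have h5 : 10 * 4 ∣ d * 4 := hd
    exact (Dvd.intro 5 (by norm_num : 2 * 5 = 10)).trans (Nat.dvd_of_mul_dvd_mul_right (by norm_num) h5))
  obtain ⟨x, hx⟩ := exists_prime_orderOf_dvd_card' (G := (P : Subgroup (stabilizer T a))) 5 (by rw [hPc])
  have hxo : orderOf (e ((x : stabilizer T a) : T) : Perm (Fin 6)) = 5 := by
    rw [Subgroup.orderOf_coe, MulEquiv.orderOf_eq, Subgroup.orderOf_coe, Subgroup.orderOf_coe, hx]
  have hyo : orderOf (e (y : T) : Perm (Fin 6)) = 2 := by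
    rw [Subgroup.orderOf_coe, MulEquiv.orderOf_eq, Subgroup.orderOf_coe, hy2]
  have hxy : (e (y : T) : Perm (Fin 6)) * (e ((x : stabilizer T a) : T) : Perm (Fin 6)) =
      (e ((x : stabilizer T a) : T) : Perm (Fin 6)) * (e (y : T) : Perm (Fin 6)) := by
    have h1 := hyc x x.2
    have h2 : (y : T) * ((x : stabilizer T a) : T) = ((x : stabilizer T a) : T) * (y : T) :=
      congrArg Subtype.val h1
    rw [← Subgroup.coe_mul, ← map_mul, h2, map_mul, Subgroup.coe_mul]
  generalize (e ((x : stabilizer T a) : T) : Perm (Fin 6)) = σ at hxo hxy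
  generalize (e (y : T) : Perm (Fin 6)) = τ at hyo hxy
  have hxc : σ.IsCycle := by
    apply isCycle_of_prime_order'
    · rw [hxo]; norm_num
    · rw [hxo, Fintype.card_fin]; norm_num
  have hxs : σ.support.card = 5 := by rw [← hxc.orderOf, hxo]
  have h5 : σ ^ 5 = 1 := by rw [← hxo]; exact pow_orderOf_eq_one _
  have h2 : τ ^ 2 = 1 := by rw [← hyo]; exact pow_orderOf_eq_one _
  have hsub : τ.support ⊆ σ.supportᶜ := by
    intro v hv
    rw [Finset.mem_compl]
    intro hv'
    rw [mem_support] at hv hv'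
    exact hv (fix_support (p := 5) (r := 2) (by norm_num) (by norm_num) (by norm_num) hxc h5 h2 hxy hv')
  have hc := Finset.card_le_card hsub
  rw [Finset.card_compl, hxs, Fintype.card_fin] at hc
  have h6 : τ.support.card ≠ 1 := card_support_ne_one τ
  have h7 : τ.support.card = 0 := by omega
  rw [card_support_eq_zero] at h7
  rw [h7, orderOf_one] at hyo
  omega

theorem key_six : ∀ n, n < 361 → n ∣ 360 ∧ 6 ≤ n → ((2 ∣ 360 / n ∨ n - 1 ∣ 45) ∧
    (3 ∣ 360 / n ∨ n - 1 ∣ 80) ∧ (4 ∣ 360 / n ∨ n - 1 ∣ 90) ∧ (5 ∣ 360 / n ∨ n - 1 ∣ 144)) →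
    n = 6 ∨ n = 9 ∨ n = 10 := by
  decide +kernel

theorem row_six (A : AS G Ω T) (e : T ≃* alternatingGroup (Fin 6)) : Known2 T (Nat.card Ω) := by
  classical
  have := A.normal
  have := A.finG
  have := A.finΩ
  have := A.faithful
  have h2 := as_two_le A
  have hT : Nat.card T = 360 := by rw [Nat.card_congr e.toEquiv, card_alt_six]
  have htr : IsPretransitive T Ω := by
    apply transitive_of_normal A.two
    intro h; rw [h, Subgroup.card_bot] at hT; omega
  have hne : Nonempty Ω := by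
    by_contra h
    rw [not_nonempty_iff] at h
    rw [Nat.card_of_isEmpty] at h2
    omega
  obtain ⟨a⟩ := hne
  have hst : Nat.card Ω * Nat.card (stabilizer T a) = 360 := by
    rw [← hT, ← index_stabilizer_of_transitive T a, Subgroup.index_mul_card]
  have f2 : Fact (Nat.Prime 2) := ⟨by norm_num⟩
  have f3 : Fact (Nat.Prime 3) := ⟨by norm_num⟩
  have f5 : Fact (Nat.Prime 5) := ⟨by norm_num⟩
  have c2 : ¬ 2 ∣ Nat.card (stabilizer T a) → Nat.card Ω - 1 ∣ 45 := cls A e a 2 0 45 cnt_two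
  have c3 : ¬ 3 ∣ Nat.card (stabilizer T a) → Nat.card Ω - 1 ∣ 80 := cls A e a 3 0 80 cnt_three
  have c4 : ¬ 4 ∣ Nat.card (stabilizer T a) → Nat.card Ω - 1 ∣ 90 := cls A e a 2 1 90 cnt_four
  have c5 : ¬ 5 ∣ Nat.card (stabilizer T a) → Nat.card Ω - 1 ∣ 144 := cls A e a 5 0 144 cnt_five
  have hn6 : 6 ≤ Nat.card Ω := by
    by_contra hcon
    have h8 := (Subgroup.card_subgroup_dvd_card T).trans (as_dvd_fact A)
    rw [hT] at h8
    have h9 : Nat.card Ω ≤ 5 := by omega
    have h10 : (Nat.card Ω).factorial ≤ Nat.factorial 5 := Nat.factorial_le h9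
    have h11 := Nat.le_of_dvd (Nat.factorial_pos _) h8
    have h12 : Nat.factorial 5 = 120 := rfl
    omega
  have hle : Nat.card Ω < 361 := by
    have := Nat.le_of_dvd (by norm_num) (Dvd.intro _ hst); omega
  have hsd : Nat.card (stabilizer T a) = 360 / Nat.card Ω := by
    rw [← hst, Nat.mul_div_cancel_left _ (by omega)]
  rw [hsd] at c2 c3 c4 c5
  rcases key_six _ hle ⟨Dvd.intro _ hst, hn6⟩ ⟨Classical.or_iff_not_imp_left.mpr c2,
    Classical.or_iff_not_imp_left.mpr c3, Classical.or_iff_not_imp_left.mpr c4,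
    Classical.or_iff_not_imp_left.mpr c5⟩ with h | h | h
  · rw [h]; exact .alt 6 (by norm_num) ⟨e⟩
  · exfalso
    apply no_nine A e a
    rw [hsd, h]
  · rw [h]
    have : Fintype (GaloisField 3 2) := Fintype.ofFinite _
    have hc : Fintype.card (GaloisField 3 2) = 9 := by
      rw [← Nat.card_eq_fintype_card, GaloisField.card 3 2 (by norm_num)]; norm_num
    obtain ⟨f⟩ := Cfsg.Agent.S0254.result (F := GaloisField 3 2) hc
    exact .psl (GaloisField 3 2) 2 10 le_rfl (by rw [hc]; norm_num) ⟨e.trans f.symm⟩ (by rw [hc]; norm_num)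

/-- **HUB H1, P10**: the alternating row -/
theorem alt_row (A : AS G Ω T) (h : Cfsg.IsAlternating T) : Known2 T (Nat.card Ω) := by
  obtain ⟨m, hm, ⟨e⟩⟩ := h
  have := A.normal
  rcases Nat.lt_or_ge m 7 with h7 | h7
  · interval_cases m
    · exact row_five A e
    · exact row_six A e
  · have c := as_ctx A m hm (by omega) e
    rcases c.main h7 with h1 | ⟨h1, h2⟩ | ⟨h1, h2⟩
    · rw [h1]; exact .alt m hm ⟨e⟩
    · subst h1; rw [h2]; exact .a7 ⟨e⟩
    · subst h1; rw [h2]
      have hc : Fintype.card (ZMod 2) = 2 := ZMod.card 2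
      have : Fact (Nat.Prime 2) := ⟨by norm_num⟩
      obtain ⟨f⟩ := Cfsg.Agent.S0256.result (F := ZMod 2) hc
      exact .psl (ZMod 2) 4 15 (by norm_num) (by norm_num) ⟨e.trans f.symm⟩ (by rw [hc]; norm_num)

end

end Cfsg.Agent.H555.AltTwo
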